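import Mathlib
import Cfsg.Agent.TitsThree.Siegel

/-!
# Elements of odd prime order in polar spaces (helper21, for S4884)

`H : HForm F V` a nondegenerate form on a finite space, `x` an isometry of prime order `q`, `q` odd, not the
characteristic.

* `perp`, `exists_decomp` : nondegenerate subspaces split off;
* `ext` : isometries of a nondegenerate subspace extend by the identity;
* `split_mem` : a subspace stable under `x` splits;
* `exists_isotropic` : totally isotropic subspaces of dimension smaller than the Witt index are not maximal.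
-/

set_option autoImplicit false
set_option linter.unusedSectionVars false

namespace Cfsg.Agent.H21.PG

open Cfsg.Agent.TitsThree.Siegel Module Submodule

section

variable {F : Type*} [Field F] {V : Type*} [AddCommGroup V] [Module F V] (H : HForm F V)

/-- isometry -/
def Isom (g : V ≃ₗ[F] V) : Prop := ∀ v w, H.h (g v) (g w) = H.h v w

/-- nondegenerate form -/
def ND : Prop := ∀ v, (∀ w, H.h v w = 0) → v = 0

/-- totally isotropic subspace -/
def TI (W : Submodule F V) : Prop := ∀ v ∈ W, ∀ w ∈ W, H.h v w = 0

/-- the orthogonal space -/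
def perp (W : Submodule F V) : Submodule F V where
  carrier := {v | ∀ w ∈ W, H.h v w = 0}
  add_mem' := by
    intro a b ha hb w hw
    rw [H.add_left, ha w hw, hb w hw, add_zero]
  zero_mem' := fun w _ => H.zero_left w
  smul_mem' := by
    intro c v hv w hw
    rw [H.smul_left, hv w hw, mul_zero]

/-- nondegenerate subspace -/
def Nd (E : Submodule F V) : Prop := ∀ v ∈ E, (∀ w ∈ E, H.h v w = 0) → v = 0

/-- stable subspace -/
def Stb (g : V ≃ₗ[F] V) (W : Submodule F V) : Prop := ∀ v ∈ W, g v ∈ W

variable {H}

theorem mem_perp {W : Submodule F V} {v : V} : v ∈ perp H W ↔ ∀ w ∈ W, H.h v w = 0 := Iff.rfl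

theorem perp_symm {W : Submodule F V} {v w : V} (hv : v ∈ perp H W) (hw : w ∈ W) : H.h w v = 0 :=
  H.orth_symm (hv w hw)

theorem Isom.inv {g : V ≃ₗ[F] V} (h : Isom H g) : Isom H g⁻¹ := by
  intro v w
  rw [← h (g⁻¹ v) (g⁻¹ w)]
  have e : ∀ v : V, g (g⁻¹ v) = v := fun v => g.apply_symm_apply v
  rw [e, e]

theorem Isom.mul {g k : V ≃ₗ[F] V} (h : Isom H g) (h' : Isom H k) : Isom H (g * k) := fun v w => by
  rw [LinearEquiv.mul_apply, LinearEquiv.mul_apply, h, h']

theorem Isom.one : Isom H (1 : V ≃ₗ[F] V) := fun _ _ => rfl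

theorem Stb.pow {g : V ≃ₗ[F] V} {W : Submodule F V} (h : Stb g W) (n : ℕ) : Stb (g ^ n) W := by
  induction n with
  | zero => intro v hv; rwa [pow_zero]
  | succ n ih =>
    intro v hv
    rw [pow_succ, LinearEquiv.mul_apply]
    exact ih _ (h v hv)

theorem Stb.perp {g : V ≃ₗ[F] V} (hg : Isom H g) {W : Submodule F V} {q : ℕ} (hq : g ^ (q + 1) = 1)
    (h : Stb g W) : Stb g (perp H W) := by
  intro v hv w hw
  have e : g (g⁻¹ w) = w := g.apply_symm_apply w
  have h1 : g⁻¹ = g ^ q := by
    rw [inv_eq_iff_mul_eq_one, ← pow_succ']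
    exact hq
  have h2 : g⁻¹ w ∈ W := by
    rw [h1]
    exact h.pow q w hw
  rw [← e, hg]
  exact hv _ h2

theorem Stb.inf {g : V ≃ₗ[F] V} {W W' : Submodule F V} (h : Stb g W) (h' : Stb g W') : Stb g (W ⊓ W') :=
  fun v hv => ⟨h v hv.1, h' v hv.2⟩

theorem TI.mono {W W' : Submodule F V} (h : TI H W') (hle : W ≤ W') : TI H W :=
  fun v hv w hw => h v (hle hv) w (hle hw)

theorem TI.le_perp {W : Submodule F V} (h : TI H W) : W ≤ perp H W := h

end

section Fin

variable {F : Type*} [Field F] [Finite F] {V : Type*} [AddCommGroup V] [Module F V] [FiniteDimensional F V]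
  {H : HForm F V}

/-- a nondegenerate subspace splits off -/
theorem exists_decomp {E : Submodule F V} (hE : Nd H E) (v : V) : ∃ e ∈ E, v - e ∈ perp H E := by
  have hfV : Finite V := Module.finite_of_finite F
  have hfE : Finite E := inferInstance
  -- `e ↦ (w ↦ h w e)`
  let φ : E → Module.Dual F E := fun e =>
    { toFun := fun w => H.h w e
      map_add' := fun a b => by rw [Submodule.coe_add, H.add_left]
      map_smul' := fun c a => by rw [Submodule.coe_smul, H.smul_left, RingHom.id_apply, smul_eq_mul] }
  have hφ : Function.Injective φ := by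
    intro a b hab
    have h1 : ∀ w : E, H.h w a = H.h w b := fun w => LinearMap.congr_fun hab w
    have h2 : (a : V) - b = 0 := by
      refine hE _ (sub_mem a.2 b.2) fun w hw => ?_
      refine H.orth_symm ?_
      rw [H.sub_right, h1 ⟨w, hw⟩, sub_self]
    exact Subtype.ext (sub_eq_zero.1 h2)
  have hc : Nat.card E = Nat.card (Module.Dual F E) := by
    have h1 : Module.finrank F (Module.Dual F E) = Module.finrank F E := Subspace.dual_finrank_eq
    rw [Module.natCard_eq_pow_finrank (K := F) (V := E), Module.natCard_eq_pow_finrank (K := F) (V := Module.Dual F E), h1]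
  have hfD : Finite (Module.Dual F E) := Module.finite_of_finite F
  have hs : Function.Surjective φ := ((Nat.bijective_iff_injective_and_card φ).2 ⟨hφ, hc⟩).2
  let f : Module.Dual F E :=
    { toFun := fun w => H.h w v
      map_add' := fun a b => by rw [Submodule.coe_add, H.add_left]
      map_smul' := fun c a => by rw [Submodule.coe_smul, H.smul_left, RingHom.id_apply, smul_eq_mul] }
  obtain ⟨e, he⟩ := hs f
  refine ⟨e, e.2, fun w hw => ?_⟩
  have h1 : H.h w e = H.h w v := LinearMap.congr_fun he ⟨w, hw⟩
  refine H.orth_symm ?_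
  rw [H.sub_right, h1, sub_self]

theorem isCompl_perp {E : Submodule F V} (hE : Nd H E) : IsCompl E (perp H E) := by
  refine isCompl_iff.2 ⟨?_, ?_⟩
  · rw [disjoint_def]
    intro v hv hv'
    exact hE v hv hv'
  · rw [codisjoint_iff, eq_top_iff]
    intro v _
    obtain ⟨e, he, h1⟩ := exists_decomp hE v
    exact mem_sup.2 ⟨e, he, v - e, h1, by abel⟩

/-- totally isotropic subspaces of dimension smaller than that of another one are not maximal -/
theorem exists_isotropic {U W : Submodule F V} (hU : TI H U) (hW : TI H W) (hlt : finrank F U < finrank F W) :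
    ∃ v ∈ W, v ∈ perp H U ∧ v ∉ U := by
  classical
  by_contra hcon
  push Not at hcon
  -- a complement of `U ⊓ W` in `U`
  obtain ⟨U', hU'⟩ := Submodule.exists_isCompl ((U ⊓ W).comap U.subtype)
  let b := Module.finBasis F U'
  let T : W →ₗ[F] (Fin (finrank F U') → F) :=
    { toFun := fun w i => H.h w ((b i : U) : V)
      map_add' := fun a c => by funext i; exact H.add_left _ _ _
      map_smul' := fun c a => by funext i; exact H.smul_left _ _ _ }
  -- the kernel lies in `U ⊓ W`
  have hker : ∀ w : W, T w = 0 → (w : V) ∈ U := by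
    intro w hw
    refine hcon w w.2 ?_
    intro u hu
    have h1 : (⟨u, hu⟩ : U) ∈ (U ⊓ W).comap U.subtype ⊔ U' := by rw [hU'.sup_eq_top]; exact mem_top
    obtain ⟨a, ha, c, hc, hac⟩ := mem_sup.1 h1
    have h2 : H.h w (a : V) = 0 := hW w w.2 a ha.2
    have h3 : H.h w ((⟨c, hc⟩ : U') : U) = 0 := by
      have h4 : ∀ y : U', H.h w ((y : U) : V) = 0 := by
        intro y
        rw [← b.sum_repr y, Submodule.coe_sum, Submodule.coe_sum]
        have h5 : ∀ s : Finset (Fin (finrank F U')), H.h w (∑ i ∈ s, ((b.repr y i • b i : U') : U) : V) = 0 := by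
          intro s
          induction s using Finset.induction_on with
          | empty => rw [Finset.sum_empty, H.zero_right]
          | insert a s ha ih =>
            rw [Finset.sum_insert ha, H.add_right, ih, add_zero, Submodule.coe_smul, Submodule.coe_smul, H.smul_right]
            have h6 : H.h w ((b a : U) : V) = 0 := congrFun hw a
            rw [h6, mul_zero]
        exact h5 _
      exact h4 ⟨c, hc⟩
    have h6 : u = (a : V) + (c : V) := by
      rw [← Submodule.coe_add, hac]
    rw [h6, H.add_right, h2, h3, add_zero]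
  have h7 : finrank F (LinearMap.ker T) ≤ finrank F ((U ⊓ W : Submodule F V)) := by
    let j : LinearMap.ker T →ₗ[F] (U ⊓ W : Submodule F V) :=
      (W.subtype.comp (LinearMap.ker T).subtype).codRestrict _ fun w => ⟨hker w w.2, w.1.2⟩
    refine LinearMap.finrank_le_finrank_of_injective (f := j) ?_
    intro a b hab
    have h1 : ((a : W) : V) = ((b : W) : V) := congrArg (fun z : (U ⊓ W : Submodule F V) => (z : V)) hab
    exact Subtype.ext (Subtype.ext h1)
  have h8 := LinearMap.finrank_range_add_finrank_ker T
  have h9 : finrank F (LinearMap.range T) ≤ finrank F U' := by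
    have := Submodule.finrank_le (LinearMap.range T)
    rwa [Module.finrank_fin_fun] at this
  have h10 : finrank F ((U ⊓ W).comap U.subtype) + finrank F U' = finrank F U :=
    Submodule.finrank_add_eq_of_isCompl hU'
  have h11 : finrank F ((U ⊓ W).comap U.subtype) = finrank F (U ⊓ W : Submodule F V) := by
    refine LinearEquiv.finrank_eq (Submodule.comapSubtypeEquivOfLe inf_le_left)
  omega

/-- a maximal totally isotropic subspace -/
theorem false_of_max {W : Submodule F V} {m : ℕ} (hm : ∀ U : Submodule F V, TI H U → finrank F U ≤ m) (hW : TI H W)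
    (hd : finrank F W = m) {v : V} (hv : v ∈ perp H W) (h0 : H.h v v = 0) (hvW : v ∉ W) : False := by
  have h1 : TI H (W ⊔ F ∙ v) := by
    intro a ha b hb
    obtain ⟨a1, ha1, a2, ha2, rfl⟩ := mem_sup.1 ha
    obtain ⟨b1, hb1, b2, hb2, rfl⟩ := mem_sup.1 hb
    obtain ⟨s, rfl⟩ := mem_span_singleton.1 ha2
    obtain ⟨t, rfl⟩ := mem_span_singleton.1 hb2
    rw [H.add_left, H.add_right, H.add_right, H.smul_left, H.smul_left, H.smul_right, H.smul_right, h0,
      hW a1 ha1 b1 hb1, hv b1 hb1, perp_symm hv ha1]
    ring
  have h2 : W < W ⊔ F ∙ v := by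
    refine lt_of_le_of_ne le_sup_left fun h => hvW ?_
    rw [h]
    exact mem_sup_right (mem_span_singleton_self v)
  have h3 := Submodule.finrank_lt_finrank_of_lt h2
  have h4 := hm _ h1
  omega

end Fin

end Cfsg.Agent.H21.PG
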