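import Mathlib
import Cfsg.Agent.H439.CC.Defs

/-!
# Primary flags and elements of order `q` (helper21, for S4884)

* `dvd_finrank` : `x` of order `q` without fixed vectors on `D`: the order of `|F|` modulo `q` divides `dim D`;
* `PF.chain` : the chain of a primary flag;
* `chain_zero` : if no relative dimension is divisible by `d`, then the top meets `[V, x]` trivially;
* `chain_two` : two elements with `dim (W ⊓ [V, x_i]) = d`, distinct relative dimensions: contradiction.
-/

set_option autoImplicit false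
set_option linter.unusedSectionVars false

namespace Cfsg.Agent.H21.PG

open Module Submodule Cfsg.Agent.H439.CC

section

variable {F : Type*} [Field F] {V : Type*} [AddCommGroup V] [Module F V]

/-- `[V, x]` -/
def Rg (x : V ≃ₗ[F] V) : Submodule F V := LinearMap.range ((x : V →ₗ[F] V) - 1)

/-- `C_V(x)` -/
def Cg (x : V ≃ₗ[F] V) : Submodule F V := LinearMap.ker ((x : V →ₗ[F] V) - 1)

theorem mem_Cg {x : V ≃ₗ[F] V} {v : V} : v ∈ Cg x ↔ x v = v := by
  rw [Cg, LinearMap.mem_ker, LinearMap.sub_apply, Module.End.one_apply, sub_eq_zero]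
  rfl

theorem sub_mem_Rg (x : V ≃ₗ[F] V) (v : V) : x v - v ∈ Rg x := ⟨v, rfl⟩

/-- the sum over `⟨x⟩` -/
def Nm (q : ℕ) (x : V ≃ₗ[F] V) (v : V) : V := ∑ i ∈ Finset.range q, (x ^ i) v

variable {q : ℕ} {x : V ≃ₗ[F] V}

theorem Nm_add (v w : V) : Nm q x (v + w) = Nm q x v + Nm q x w := by
  simp only [Nm, map_add, Finset.sum_add_distrib]

theorem Nm_fix {v : V} (h : x v = v) : Nm q x v = (q : F) • v := by
  have h1 : ∀ i : ℕ, (x ^ i) v = v := by
    intro i
    induction i with
    | zero => rfl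
    | succ i ih => rw [pow_succ, LinearEquiv.mul_apply, h, ih]
  rw [Nm, Finset.sum_congr rfl fun i _ => h1 i, Finset.sum_const, Finset.card_range, Nat.cast_smul_eq_nsmul]

theorem apply_Nm (hx : x ^ q = 1) (v : V) : x (Nm q x v) = Nm q x v := by
  have h1 : x (Nm q x v) = ∑ i ∈ Finset.range q, (x ^ (i + 1)) v := by
    rw [Nm, map_sum]
    refine Finset.sum_congr rfl fun i _ => ?_
    rw [pow_succ', LinearEquiv.mul_apply]
  rw [h1]
  have h2 := Finset.sum_range_succ (fun i => (x ^ i) v) q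
  have h3 := Finset.sum_range_succ' (fun i => (x ^ i) v) q
  rw [h2, hx, pow_zero] at h3
  exact (add_right_cancel h3).symm

theorem Nm_sub (hx : x ^ q = 1) (v : V) : Nm q x (x v - v) = 0 := by
  have h1 : Nm q x (x v) = Nm q x v := by
    rw [← apply_Nm hx v, Nm, Nm, map_sum]
    refine Finset.sum_congr rfl fun i _ => ?_
    rw [← LinearEquiv.mul_apply, ← LinearEquiv.mul_apply, ← pow_succ, ← pow_succ']
  have h2 : Nm q x (x v) = Nm q x (x v - v) + Nm q x v := by rw [← Nm_add, sub_add_cancel]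
  rw [h1] at h2
  exact left_eq_add.1 (by rw [add_comm]; exact h2)

theorem Nm_Rg (hx : x ^ q = 1) {v : V} (hv : v ∈ Rg x) : Nm q x v = 0 := by
  obtain ⟨u, rfl⟩ := hv
  exact Nm_sub hx u

theorem pow_sub_mem (v : V) (i : ℕ) : (x ^ i) v - v ∈ Rg x := by
  induction i with
  | zero => simp
  | succ i ih =>
    have h1 : (x ^ (i + 1)) v - v = (x ((x ^ i) v) - (x ^ i) v) + ((x ^ i) v - v) := by
      rw [pow_succ', LinearEquiv.mul_apply]; abel
    rw [h1]
    exact add_mem (sub_mem_Rg x _) ih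

theorem Nm_sub_mem (v : V) : (q : F) • v - Nm q x v ∈ Rg x := by
  have h1 : (q : F) • v - Nm q x v = -∑ i ∈ Finset.range q, ((x ^ i) v - v) := by
    rw [Finset.sum_sub_distrib, Finset.sum_const, Finset.card_range, Nat.cast_smul_eq_nsmul, Nm]
    abel
  rw [h1]
  exact neg_mem (sum_mem fun i _ => pow_sub_mem v i)

theorem disj (hx : x ^ q = 1) (hq : (q : F) ≠ 0) {v : V} (h1 : v ∈ Rg x) (h2 : v ∈ Cg x) : v = 0 := by
  have h3 := Nm_Rg hx h1
  rw [Nm_fix (mem_Cg.1 h2)] at h3
  exact (smul_eq_zero.1 h3).resolve_left hq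

/-- stable subspace -/
def Sb (x : V ≃ₗ[F] V) (W : Submodule F V) : Prop := ∀ v ∈ W, x v ∈ W

theorem Sb.pow {W : Submodule F V} (h : Sb x W) (n : ℕ) : ∀ v ∈ W, (x ^ n) v ∈ W := by
  induction n with
  | zero => intro v hv; rwa [pow_zero]
  | succ n ih =>
    intro v hv
    rw [pow_succ, LinearEquiv.mul_apply]
    exact ih _ (h v hv)

theorem Sb.Nm {W : Submodule F V} (h : Sb x W) {v : V} (hv : v ∈ W) : Nm q x v ∈ W :=
  sum_mem fun i _ => h.pow i v hv

theorem Sb.Rg : Sb x (Rg x) := by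
  rintro _ ⟨u, rfl⟩
  exact ⟨x u, by simp [LinearMap.sub_apply]⟩

theorem Sb.inf {W W' : Submodule F V} (h : Sb x W) (h' : Sb x W') : Sb x (W ⊓ W') :=
  fun v hv => ⟨h v hv.1, h' v hv.2⟩

/-- stable subspaces split -/
theorem Sb.split (hx : x ^ q = 1) (hq : (q : F) ≠ 0) {W : Submodule F V} (h : Sb x W) {v : V} (hv : v ∈ W) :
    ∃ a ∈ W ⊓ PG.Rg x, ∃ b ∈ W ⊓ Cg x, v = a + b := by
  refine ⟨v - (q : F)⁻¹ • PG.Nm q x v, ⟨sub_mem hv (smul_mem _ _ (h.Nm hv)), ?_⟩, (q : F)⁻¹ • PG.Nm q x v,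
    ⟨smul_mem _ _ (h.Nm hv), smul_mem _ _ (mem_Cg.2 (apply_Nm hx v))⟩, by abel⟩
  have h1 : v - (q : F)⁻¹ • PG.Nm q x v = (q : F)⁻¹ • ((q : F) • v - PG.Nm q x v) := by
    rw [smul_sub, smul_smul, inv_mul_cancel₀ hq, one_smul]
  rw [h1]
  exact smul_mem _ _ (Nm_sub_mem v)

end

section Fin

variable {F : Type*} [Field F] [Finite F] {V : Type*} [AddCommGroup V] [Module F V] [FiniteDimensional F V]
  {q : ℕ} [hqp : Fact q.Prime] {x : V ≃ₗ[F] V}

/-- **divisibility** -/
theorem dvd_finrank (hx : x ^ q = 1) {D : Submodule F V} (hD : Sb x D) (hfix : ∀ v ∈ D, x v = v → v = 0) :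
    orderOf ((Nat.card F : ℕ) : ZMod q) ∣ finrank F D := by
  classical
  have hfV : Finite V := Module.finite_of_finite F
  have hfD : Fintype D := Fintype.ofFinite _
  let f : Function.End D := fun v => ⟨x v, hD v v.2⟩
  have hf : ∀ (n : ℕ) (v : D), ((f ^ n) v : V) = (x ^ n) v := by
    intro n
    induction n with
    | zero => intro v; rfl
    | succ n ih =>
      intro v
      rw [pow_succ, pow_succ]
      change ((f ^ n) (f v) : V) = (x ^ n) (x v)
      rw [ih]
  have hfq : f ^ q ^ 1 = 1 := by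
    funext v
    apply Subtype.ext
    rw [pow_one, hf, hx]
    rfl
  have h1 := Equiv.Perm.card_fixedPoints_modEq (p := q) (n := 1) hfq
  have h2 : Fintype.card (Function.fixedPoints f) = 1 := by
    rw [Fintype.card_eq_one_iff]
    refine ⟨⟨0, ?_⟩, ?_⟩
    · apply Subtype.ext
      change x ((0 : D) : V) = _
      rw [ZeroMemClass.coe_zero, map_zero]
    · rintro ⟨v, hv⟩
      apply Subtype.ext
      apply Subtype.ext
      exact hfix v v.2 (congrArg Subtype.val hv)
  rw [h2, ← Nat.card_eq_fintype_card, Module.natCard_eq_pow_finrank (K := F) (V := D)] at h1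
  rw [orderOf_dvd_iff_pow_eq_one]
  have h3 := (ZMod.natCast_eq_natCast_iff _ _ _).2 h1
  push_cast at h3
  exact h3

theorem finrank_split (hx : x ^ q = 1) (hq : (q : F) ≠ 0) {W : Submodule F V} (h : Sb x W) :
    finrank F W = finrank F (W ⊓ Rg x : Submodule F V) + finrank F (W ⊓ Cg x : Submodule F V) := by
  have h1 : (W ⊓ Rg x) ⊔ (W ⊓ Cg x) = W := by
    apply le_antisymm (sup_le inf_le_left inf_le_left)
    intro v hv
    obtain ⟨a, ha, b, hb, rfl⟩ := h.split hx hq hv
    exact add_mem (mem_sup_left ha) (mem_sup_right hb)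
  have h2 : (W ⊓ Rg x) ⊓ (W ⊓ Cg x) = ⊥ := by
    rw [eq_bot_iff]
    rintro v ⟨h3, h4⟩
    exact disj hx hq h3.2 h4.2
  have h3 := Submodule.finrank_sup_add_finrank_inf_eq (W ⊓ Rg x) (W ⊓ Cg x)
  rw [h1, h2, finrank_bot, add_zero] at h3
  exact h3

theorem dvd_inf (hx : x ^ q = 1) (hq : (q : F) ≠ 0) {W : Submodule F V} (h : Sb x W) :
    orderOf ((Nat.card F : ℕ) : ZMod q) ∣ finrank F (W ⊓ Rg x : Submodule F V) :=
  dvd_finrank hx (h.inf Sb.Rg) fun v hv hv' => disj hx hq hv.2 (mem_Cg.2 hv')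

/-- the two alternatives for a primary quotient -/
theorem prim_cases (hx : x ^ q = 1) (hq : (q : F) ≠ 0) {A B : Submodule F V} (hA : Sb x A) (hB : Sb x B)
    (hAB : A ≤ B) (h : Prim x A B) :
    (finrank F (B ⊓ Rg x : Submodule F V) = finrank F (A ⊓ Rg x : Submodule F V)) ∨
      (∀ v ∈ B, Nm q x v ∈ A) := by
  let p1 : Polynomial F := Polynomial.X - 1
  let p2 : Polynomial F := ∑ i ∈ Finset.range q, Polynomial.X ^ i
  have h12 : p1 * p2 = Polynomial.X ^ q - 1 := by
    rw [mul_comm]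
    exact geom_sum_mul _ _
  have hev1 : ∀ v, Polynomial.aeval (x : V →ₗ[F] V) p1 v = x v - v := by
    intro v
    simp [p1]
  have hpow : ∀ (i : ℕ) (v : V), ((x : V →ₗ[F] V) ^ i) v = (x ^ i) v := by
    intro i
    induction i with
    | zero => intro v; rfl
    | succ i ih =>
      intro v
      rw [pow_succ, pow_succ, Module.End.mul_apply, LinearEquiv.mul_apply]
      exact ih _
  have hev2 : ∀ v, Polynomial.aeval (x : V →ₗ[F] V) p2 v = Nm q x v := by
    intro v
    simp only [p2, map_sum, map_pow, Polynomial.aeval_X, LinearMap.sum_apply, hpow, Nm]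
  have hcop : IsCoprime p1 p2 := by
    have h1 : Polynomial.eval 1 p2 = (q : F) := by
      simp [p2, Polynomial.eval_finset_sum]
    have h2 : p1 ∣ p2 - Polynomial.C (q : F) := by
      rw [← h1]
      exact Polynomial.X_sub_C_dvd_sub_C_eval (a := (1 : F)) (p := p2)
    obtain ⟨s, hs⟩ := h2
    refine ⟨-Polynomial.C ((q : F)⁻¹) * s, Polynomial.C ((q : F)⁻¹), ?_⟩
    have h3 : p2 = p1 * s + Polynomial.C (q : F) := by rw [← hs]; ring
    rw [h3, mul_add, ← Polynomial.C_mul, inv_mul_cancel₀ hq, Polynomial.C_1]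
    ring
  have hev12 : ∀ v, Polynomial.aeval (x : V →ₗ[F] V) (p1 * p2) v = 0 := by
    intro v
    rw [h12, map_sub, map_pow, Polynomial.aeval_X, map_one, LinearMap.sub_apply, hpow, hx, Module.End.one_apply]
    exact sub_self v
  rcases h p1 p2 hcop (fun v _ => by rw [hev12]; exact zero_mem _) with h1 | h1
  · left
    have h2 : B ⊓ Rg x = A ⊓ Rg x := by
      apply le_antisymm
      · rintro v ⟨hv, hvR⟩
        refine ⟨?_, hvR⟩
        -- `q v = q v - N v ∈ (x - 1) B`
        have h3 : Nm q x v = 0 := Nm_Rg hx hvR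
        have h4 : ∀ i : ℕ, (x ^ i) v - v ∈ A := by
          intro i
          induction i with
          | zero => simp
          | succ i ih =>
            have h5 : (x ^ (i + 1)) v - v = (x ((x ^ i) v) - (x ^ i) v) + ((x ^ i) v - v) := by
              rw [pow_succ', LinearEquiv.mul_apply]; abel
            rw [h5]
            refine add_mem ?_ ih
            rw [← hev1]
            exact h1 _ (hB.pow i v hv)
        have h5 : (q : F) • v = -∑ i ∈ Finset.range q, ((x ^ i) v - v) := by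
          rw [Finset.sum_sub_distrib, Finset.sum_const, Finset.card_range, Nat.cast_smul_eq_nsmul]
          have h6 : ∑ i ∈ Finset.range q, (x ^ i) v = 0 := h3
          rw [h6]
          abel
        have h6 : v = (q : F)⁻¹ • ((q : F) • v) := by rw [smul_smul, inv_mul_cancel₀ hq, one_smul]
        rw [h6, h5]
        exact smul_mem _ _ (neg_mem (sum_mem fun i _ => h4 i))
      · exact inf_le_inf_right _ hAB
    rw [h2]
  · right
    intro v hv
    rw [← hev2]
    exact h1 v hv

/-- if `N(B) ≤ A` then the quotient is fixed point free -/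
theorem finrank_of_Nm (hx : x ^ q = 1) (hq : (q : F) ≠ 0) {A B : Submodule F V} (hA : Sb x A) (hB : Sb x B)
    (hAB : A ≤ B) (h : ∀ v ∈ B, Nm q x v ∈ A) :
    finrank F (B ⊓ Rg x : Submodule F V) + finrank F A = finrank F (A ⊓ Rg x : Submodule F V) + finrank F B := by
  have h1 : B ⊓ Cg x = A ⊓ Cg x := by
    apply le_antisymm
    · rintro v ⟨hv, hvC⟩
      refine ⟨?_, hvC⟩
      have h2 := h v hv
      rw [Nm_fix (mem_Cg.1 hvC)] at h2
      have h6 : v = (q : F)⁻¹ • ((q : F) • v) := by rw [smul_smul, inv_mul_cancel₀ hq, one_smul]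
      rw [h6]
      exact smul_mem _ _ h2
    · exact inf_le_inf_right _ hAB
  have h2 := finrank_split hx hq hA
  have h3 := finrank_split hx hq hB
  rw [h1] at h3
  omega

end Fin

end Cfsg.Agent.H21.PG
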