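import Cfsg.Agent.H21.PG.Types

/-!
# Basic facts on `Hyp` and extension of isometries (helper21, S4884 block G)

* `Hyp.nd`, `Hyp.witt`, `Hyp.u_ne`;
* `finrank_perp_le` : `dim W + dim W^⊥ ≤ dim V`;
* `exists_ext`  : an isometry of a nondegenerate subspace (image of `j : E₀ → V`) extends by the identity;
* `PF.top`      : the top of a primary flag;
* `Stuck`       : if `W ⊓ [V, x] = ⊥` then `W ≤ C(x)` and `[V, x] ≤ W^⊥`.
-/

set_option autoImplicit false
set_option linter.unusedSectionVars false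

namespace Cfsg.Agent.H21.PG

open Cfsg.Agent.TitsThree.Siegel Module Submodule Cfsg.Agent.H439.CC

universe u v

section

variable {F : Type u} [Field F] {V : Type v} [AddCommGroup V] [Module F V] {H : HForm F V} {m : ℕ}

theorem Hyp.wu (D : Hyp H m) (i j : Fin m) : H.h (D.w i) (D.u j) = if i = j then H.ε else 0 := by
  rw [H.swap (D.u j) (D.w i), D.uw]
  by_cases h : i = j
  · rw [if_pos h.symm, if_pos h, map_one, mul_one]
  · rw [if_neg fun h' => h h'.symm, if_neg h, map_zero, mul_zero]

theorem Hyp.u_ne (D : Hyp H m) (i : Fin m) : D.u i ≠ 0 := by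
  intro h
  have h1 := D.uw i i
  rw [h, H.zero_left, if_pos rfl] at h1
  exact zero_ne_one h1

theorem sum_left {ι : Type*} (s : Finset ι) (f : ι → V) (w : V) : H.h (∑ i ∈ s, f i) w = ∑ i ∈ s, H.h (f i) w := by
  classical
  induction s using Finset.induction_on with
  | empty => rw [Finset.sum_empty, Finset.sum_empty, H.zero_left]
  | insert a s ha ih => rw [Finset.sum_insert ha, Finset.sum_insert ha, H.add_left, ih]

theorem sum_right {ι : Type*} (s : Finset ι) (f : ι → V) (w : V) : H.h w (∑ i ∈ s, f i) = ∑ i ∈ s, H.h w (f i) := by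
  classical
  induction s using Finset.induction_on with
  | empty => rw [Finset.sum_empty, Finset.sum_empty, H.zero_right]
  | insert a s ha ih => rw [Finset.sum_insert ha, Finset.sum_insert ha, H.add_right, ih]

theorem Hyp.nd (D : Hyp H m) : ND H := by
  intro v hv
  exact D.ani v (fun i => H.orth_symm (hv _)) (fun i => H.orth_symm (hv _)) (hv v)

/-- the span of the `u_i` -/
def Hyp.M (D : Hyp H m) : Submodule F V := span F (Set.range D.u)

theorem Hyp.M_ti (D : Hyp H m) : TI H D.M := by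
  intro a ha b hb
  induction ha using Submodule.span_induction with
  | mem x hx =>
    obtain ⟨i, rfl⟩ := hx
    induction hb using Submodule.span_induction with
    | mem y hy => obtain ⟨j, rfl⟩ := hy; exact D.uu i j
    | zero => exact H.zero_right _
    | add y z _ _ h1 h2 => rw [H.add_right, h1, h2, add_zero]
    | smul c y _ h1 => rw [H.smul_right, h1, mul_zero]
  | zero => exact H.zero_left _
  | add y z _ _ h1 h2 => rw [H.add_left, h1, h2, add_zero]
  | smul c y _ h1 => rw [H.smul_left, h1, mul_zero]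

theorem Hyp.li (D : Hyp H m) : LinearIndependent F D.u := by
  rw [Fintype.linearIndependent_iff]
  intro g hg i
  have h1 : H.h (∑ j, g j • D.u j) (D.w i) = g i := by
    rw [sum_left, Finset.sum_eq_single i]
    · rw [H.smul_left, D.uw, if_pos rfl, mul_one]
    · intro j _ hj
      rw [H.smul_left, D.uw, if_neg hj, mul_zero]
    · intro h; exact absurd (Finset.mem_univ i) h
  rw [hg, H.zero_left] at h1
  exact h1.symm

theorem Hyp.finrank_M (D : Hyp H m) : finrank F D.M = m := by
  rw [Hyp.M, finrank_span_eq_card D.li, Fintype.card_fin]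

end

section Fin

variable {F : Type u} [Field F] [Finite F] {V : Type v} [AddCommGroup V] [Module F V] [FiniteDimensional F V]
  {H : HForm F V} {m : ℕ}

/-- the Witt index is `m` -/
theorem Hyp.witt (D : Hyp H m) (U : Submodule F V) (hU : TI H U) : finrank F U ≤ m := by
  by_contra hlt
  obtain ⟨v, hvU, hvM, hvn⟩ := exists_isotropic D.M_ti hU (by rw [D.finrank_M]; omega)
  let v' : V := v - ∑ i, H.h v (D.w i) • D.u i
  have hMu : ∀ i, D.u i ∈ D.M := fun i => subset_span ⟨i, rfl⟩
  have hs : ∑ i, H.h v (D.w i) • D.u i ∈ D.M := sum_mem fun i _ => smul_mem _ _ (hMu i)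
  have h1 : ∀ i, H.h v' (D.u i) = 0 := by
    intro i
    rw [H.sub_left, hvM _ (hMu i), D.M_ti _ hs _ (hMu i), sub_zero]
  have h2 : ∀ i, H.h v' (D.w i) = 0 := by
    intro i
    rw [H.sub_left, sum_left, Finset.sum_eq_single i]
    · rw [H.smul_left, D.uw, if_pos rfl, mul_one, sub_self]
    · intro j _ hj
      rw [H.smul_left, D.uw, if_neg hj, mul_zero]
    · intro h; exact absurd (Finset.mem_univ i) h
  have h3 : H.h v' v' = 0 := by
    have h4 : H.h v' v = 0 := by
      rw [H.sub_left, hU v hvU v hvU, H.orth_symm (hvM _ hs), sub_zero]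
    have h5 : H.h v' (∑ i, H.h v (D.w i) • D.u i) = 0 := by
      rw [sum_right]
      refine Finset.sum_eq_zero fun i _ => ?_
      rw [H.smul_right, h1, mul_zero]
    change H.h v' (v - _) = 0
    rw [H.sub_right, h4, h5, sub_zero]
  have h4 : v' = 0 := D.ani v' (fun i => H.orth_symm (h1 i)) (fun i => H.orth_symm (h2 i)) h3
  apply hvn
  have h5 : v = ∑ i, H.h v (D.w i) • D.u i := sub_eq_zero.1 h4
  rw [h5]
  exact hs

/-- `dim W + dim W^⊥ ≤ dim V` -/
theorem finrank_perp_le (hnd : ND H) (W : Submodule F V) :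
    finrank F W + finrank F (perp H W) ≤ finrank F V := by
  classical
  obtain ⟨C, hC⟩ := Submodule.exists_isCompl (perp H W)
  let b := Module.finBasis F C
  let T : W →ₗ[F] (Fin (finrank F C) → F) :=
    { toFun := fun w i => H.h w ((b i : C) : V)
      map_add' := fun a c => by funext i; exact H.add_left _ _ _
      map_smul' := fun c a => by funext i; exact H.smul_left _ _ _ }
  have hT : Function.Injective T := by
    rw [injective_iff_map_eq_zero]
    intro w hw
    have h1 : ∀ c ∈ C, H.h w c = 0 := by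
      intro c hc
      have h2 : c = ∑ i, b.repr ⟨c, hc⟩ i • ((b i : C) : V) := by
        have h3 := congrArg (fun y : C => (y : V)) (b.sum_repr ⟨c, hc⟩)
        simp only [Submodule.coe_sum, Submodule.coe_smul] at h3
        exact h3.symm
      rw [h2, sum_right]
      refine Finset.sum_eq_zero fun i _ => ?_
      have h6 : H.h w ((b i : C) : V) = 0 := congrFun hw i
      rw [H.smul_right, h6, mul_zero]
    have h2 : (w : V) = 0 := by
      refine hnd _ fun v => ?_
      have h3 : v ∈ perp H W ⊔ C := by rw [hC.sup_eq_top]; exact mem_top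
      obtain ⟨a, ha, c, hc, rfl⟩ := mem_sup.1 h3
      rw [H.add_right, perp_symm ha w.2, h1 c hc, add_zero]
    exact Subtype.ext h2
  have h1 := LinearMap.finrank_le_finrank_of_injective hT
  rw [Module.finrank_fin_fun] at h1
  have h2 := Submodule.finrank_add_eq_of_isCompl hC
  omega

/-- extension of an isometry of a nondegenerate subspace -/
theorem exists_ext {E : Type*} [AddCommGroup E] [Module F E] (j : E →ₗ[F] V)
    (hnd : ∀ a, (∀ b, H.h (j a) (j b) = 0) → a = 0) (f : E ≃ₗ[F] E)
    (hf : ∀ a b, H.h (j (f a)) (j (f b)) = H.h (j a) (j b)) {q : ℕ} (hq : f ^ q = 1) :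
    ∃ x : V ≃ₗ[F] V, Isom H x ∧ x ^ q = 1 ∧ (∀ a, x (j a) = j (f a)) ∧ (∀ v, (∀ a, H.h v (j a) = 0) → x v = v) ∧
      ∀ v, ∃ a, (∀ b, H.h (v - j a) (j b) = 0) ∧ x v = v + j (f a - a) := by
  have hj : Function.Injective j := by
    rw [injective_iff_map_eq_zero]
    intro a ha
    exact hnd a fun b => by rw [ha, H.zero_left]
  have hE : Nd H (LinearMap.range j) := by
    rintro _ ⟨a, rfl⟩ h
    rw [hnd a fun b => h _ ⟨b, rfl⟩, map_zero]
  have hC := isCompl_perp hE
  let P : V →ₗ[F] E := (LinearEquiv.ofInjective j hj).symm.toLinearMap ∘ₗ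
    (Submodule.linearProjOfIsCompl (LinearMap.range j) (perp H (LinearMap.range j)) hC)
  have hPj : ∀ a, P (j a) = a := by
    intro a
    change (LinearEquiv.ofInjective j hj).symm (Submodule.linearProjOfIsCompl _ _ hC (j a)) = a
    have h1 : Submodule.linearProjOfIsCompl (LinearMap.range j) (perp H (LinearMap.range j)) hC (j a) =
        LinearEquiv.ofInjective j hj a := by
      have h2 := Submodule.linearProjOfIsCompl_apply_left hC (LinearEquiv.ofInjective j hj a)
      exact h2
    rw [h1, LinearEquiv.symm_apply_apply]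
  have hP0 : ∀ v, (∀ a, H.h v (j a) = 0) → P v = 0 := by
    intro v hv
    have h1 : v ∈ perp H (LinearMap.range j) := by
      rintro _ ⟨a, rfl⟩
      exact hv a
    change (LinearEquiv.ofInjective j hj).symm (Submodule.linearProjOfIsCompl _ _ hC v) = 0
    have h2 : Submodule.linearProjOfIsCompl (LinearMap.range j) (perp H (LinearMap.range j)) hC v = 0 :=
      (Submodule.linearProjOfIsCompl_apply_eq_zero_iff hC).2 h1
    rw [h2, map_zero]
  have hPp : ∀ v b, H.h (v - j (P v)) (j b) = 0 := by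
    intro v b
    obtain ⟨e, ⟨a, rfl⟩, h1⟩ := exists_decomp hE v
    have h2 : P v = a := by
      have h3 : P v = P (j a) + P (v - j a) := by rw [← map_add]; congr 1; abel
      rw [h3, hPj, hP0 _ fun b => h1 _ ⟨b, rfl⟩, add_zero]
    rw [h2]
    exact h1 _ ⟨b, rfl⟩
  let X : (E ≃ₗ[F] E) → (V →ₗ[F] V) := fun g => LinearMap.id + j ∘ₗ ((g : E →ₗ[F] E) - LinearMap.id) ∘ₗ P
  have hX : ∀ g v, X g v = v + j (g (P v) - P v) := fun g v => rfl
  have hPX : ∀ g v, P (X g v) = g (P v) := by
    intro g v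
    rw [hX, map_add, hPj]
    abel
  have hmul : ∀ g k v, X g (X k v) = X (g * k) v := by
    intro g k v
    rw [hX g, hPX, hX, hX, LinearEquiv.mul_apply, map_sub, map_sub, map_sub]
    abel
  have hone : ∀ v, X 1 v = v := by
    intro v
    rw [hX]
    change v + j (P v - P v) = v
    rw [sub_self, map_zero, add_zero]
  let x : V ≃ₗ[F] V := LinearEquiv.ofLinear (X f) (X f⁻¹)
    (by ext v; change X f (X f⁻¹ v) = v; rw [hmul, mul_inv_cancel, hone])
    (by ext v; change X f⁻¹ (X f v) = v; rw [hmul, inv_mul_cancel, hone])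
  have hx : ∀ v, x v = v + j (f (P v) - P v) := fun v => rfl
  have hpow : ∀ n v, (x ^ n) v = X (f ^ n) v := by
    intro n
    induction n with
    | zero => intro v; rw [pow_zero, pow_zero, hone]; rfl
    | succ n ih =>
      intro v
      rw [pow_succ, pow_succ, LinearEquiv.mul_apply, ih, ← hmul]
      rfl
  refine ⟨x, ?_, ?_, ?_, ?_, fun v => ⟨P v, hPp v, hx v⟩⟩
  · intro v w
    have h1 : ∀ v, x v = (v - j (P v)) + j (f (P v)) := by
      intro v
      rw [hx, map_sub]
      abel
    have h2 : ∀ v, v = (v - j (P v)) + j (P v) := fun v => by abel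
    rw [h1 v, h1 w, H.add_left, H.add_right, H.add_right, hPp, H.orth_symm (hPp w _), hf]
    conv_rhs => rw [h2 v, h2 w, H.add_left, H.add_right, H.add_right, hPp, H.orth_symm (hPp w _)]
  · ext v
    rw [hpow, hq, hone]
    rfl
  · intro a
    rw [hx, hPj, map_sub]
    abel
  · intro v hv
    rw [hx, hP0 v hv, map_zero, sub_zero, map_zero, add_zero]

/-- the top of a primary flag -/
theorem PF.top {Adm : Submodule F V → Prop} {X : Set (V ≃ₗ[F] V)} :
    ∀ (ds : List ℕ) (A : Submodule F V), PF Adm X ds A → Adm A → (∀ x ∈ X, A.map (x : V →ₗ[F] V) = A) →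
    ∃ W : Submodule F V, A ≤ W ∧ Adm W ∧ (∀ x ∈ X, W.map (x : V →ₗ[F] V) = W) ∧ finrank F W = finrank F A + ds.sum
  | [], A, _, hA, hs => ⟨A, le_rfl, hA, hs, by rw [List.sum_nil, add_zero]⟩
  | k :: ds, A, ⟨B, h1, h2, h3, h4, _, h6⟩, _, _ => by
    obtain ⟨W, h7, h8, h9, h10⟩ := PF.top ds B h6 h2 h3
    exact ⟨W, h1.le.trans h7, h8, h9, by rw [h10, h4, List.sum_cons]; ring⟩

theorem dig_sum (N : ℕ) : (dig N).sum = N := Nat.twoPowSum_bitIndices N

theorem TI.bot : TI H (⊥ : Submodule F V) := by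
  intro v hv w _
  rw [(mem_bot F).1 hv, H.zero_left]

theorem top_of_PF {X : Set (V ≃ₗ[F] V)} (h : PF (TI H) X (dig m) ⊥) :
    ∃ W : Submodule F V, TI H W ∧ (∀ x ∈ X, W.map (x : V →ₗ[F] V) = W) ∧ finrank F W = m := by
  obtain ⟨W, _, h1, h2, h3⟩ := PF.top _ _ h TI.bot fun x _ => Submodule.map_bot _
  exact ⟨W, h1, h2, by rw [h3, finrank_bot, dig_sum, zero_add]⟩

theorem Sb.of_map {x : V ≃ₗ[F] V} {W : Submodule F V} (h : W.map (x : V →ₗ[F] V) = W) : Sb x W := by
  intro v hv
  rw [← h]
  exact mem_map_of_mem hv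

/-- `W ⊓ [V, x] = ⊥` -/
theorem stuck {q : ℕ} {x : V ≃ₗ[F] V} (hx : x ^ q = 1) (hq : (q : F) ≠ 0) (hI : Isom H x) {W : Submodule F V}
    (hW : Sb x W) (h0 : W ⊓ Rg x = ⊥) : W ≤ Cg x ∧ Rg x ≤ perp H W := by
  have h1 : W ≤ Cg x := by
    intro v hv
    obtain ⟨a, ha, b, hb, rfl⟩ := hW.split hx hq hv
    rw [h0] at ha
    rw [(mem_bot F).1 ha, zero_add]
    exact hb.2
  refine ⟨h1, ?_⟩
  rintro _ ⟨v, rfl⟩ w hw
  change H.h (x v - v) w = 0
  have h2 : x w = w := mem_Cg.1 (h1 hw)
  have h3 : H.h (x v) w = H.h v w := by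
    conv_lhs => rw [← h2]
    exact hI v w
  rw [H.sub_left, h3, sub_self]

end Fin

end Cfsg.Agent.H21.PG
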